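import Cfsg.Agent.H28.IBr.Eigen
import Cfsg.Agent.H41.LocalRing
import Cfsg.Agent.H40.IdemLift
import Cfsg.Agent.H40.PPart
import Cfsg.Agent.H26.BlockDim
import Cfsg.Agent.H26.CharBasic
import Cfsg.Agent.H27.Induction
import Cfsg.Agent.H42.RegularPart
import Cfsg.Agent.H43.D1.ModP

/-!
# Brauer characters of modular representations

The Brauer character of a representation over the residue field is defined by the ranks of the
eigen idempotents.  On a group of order prime to `p` it is a character, and its composition with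
the regular part is a generalized character.
-/

set_option autoImplicit false
set_option maxHeartbeats 1000000
set_option synthInstance.maxHeartbeats 200000

namespace Cfsg.Agent.H28.IBr

open Cfsg.Agent.H41 (ResField localRing res)
open Finset

universe u

variable {p : ℕ} [hp : Fact p.Prime] {M : Ideal Cfsg.AlgInt} [M.IsMaximal]

variable (M) in
/-- A primitive root of unity in the local ring. -/
noncomputable def root (m : ℕ) : localRing M :=
  ⟨Complex.exp (2 * Real.pi * Complex.I / m), Cfsg.Agent.H41.isIntegral_mem_localRing (by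
    rcases Nat.eq_zero_or_pos m with rfl | hm
    · simpa using isIntegral_one
    · exact (Complex.isPrimitiveRoot_exp m hm.ne').isIntegral hm)⟩

theorem isPrimitiveRoot_root {m : ℕ} (hm : 0 < m) : IsPrimitiveRoot (root M m) m :=
  IsPrimitiveRoot.of_map_of_injective (f := (localRing M).subtype)
    (Complex.isPrimitiveRoot_exp m hm.ne') Subtype.val_injective

open scoped Classical in
variable (M) in
/-- The inverse of a natural number in the local ring, when it exists. -/
noncomputable def invN (m : ℕ) : localRing M :=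
  if h : ((m : ℂ))⁻¹ ∈ localRing M then ⟨(m : ℂ)⁻¹, h⟩ else 0

theorem natCast_mul_invN (hM : Cfsg.IsPModular p M) {m : ℕ} (hm : ¬ p ∣ m) :
    (m : localRing M) * invN M m = 1 := by
  have h := Cfsg.Agent.H41.IsPModular.inv_natCast_mem hM hm
  have hm0 : (m : ℂ) ≠ 0 := Nat.cast_ne_zero.2 fun e => hm (e ▸ dvd_zero p)
  rw [invN, dif_pos h]
  apply Subtype.ext
  push_cast
  exact mul_inv_cancel₀ hm0

section Def

variable {G : Type*} [Group G] {V : Type*} [AddCommGroup V] [Module (ResField M) V]

variable (M) in
/-- The eigen idempotents over the residue field. -/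
noncomputable def eigBar {S : Type*} [Ring S] [Algebra (ResField M) S] (m : ℕ) (T : S) (l : ℕ) :
    S :=
  eigen (res M (invN M m)) (res M (root M m)) m T l

/-- The Brauer character of a representation, as a member of the local ring. -/
noncomputable def bcharLoc (ρ : G →* Module.End (ResField M) V) (x : G) : localRing M :=
  ∑ l ∈ range (orderOf x), root M (orderOf x) ^ l * (rk (eigBar M (orderOf x) (ρ x) l) : localRing M)

/-- The Brauer character of a representation. -/
noncomputable def bchar (ρ : G →* Module.End (ResField M) V) (x : G) : ℂ := (bcharLoc ρ x : ℂ)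

/-- The Brauer character does not see injective changes of the group. -/
theorem bchar_comp {H : Type*} [Group H] (f : H →* G) (hf : Function.Injective f)
    (ρ : G →* Module.End (ResField M) V) (x : H) : bchar (ρ.comp f) x = bchar ρ (f x) := by
  simp [bchar, bcharLoc, orderOf_injective f hf]

/-- The Brauer character at the identity is the dimension. -/
theorem bchar_one [FiniteDimensional (ResField M) V] (ρ : G →* Module.End (ResField M) V) :
    bchar ρ (1 : G) = (Module.finrank (ResField M) V : ℂ) := by
  have h : eigBar M 1 (1 : Module.End (ResField M) V) 0 = res M (invN M 1) • 1 := by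
    simp [eigBar, eigen]
  have h1 : invN M 1 = 1 := by
    rw [invN, dif_pos (show ((1 : ℕ) : ℂ)⁻¹ ∈ localRing M by simp [one_mem])]
    exact Subtype.ext (by simp)
  simp only [bchar, bcharLoc, orderOf_one, range_one, sum_singleton, pow_zero, one_mul, map_one, h,
    h1, one_smul, rk_one]
  push_cast
  rfl

/-- The Brauer character is a class function. -/
theorem bchar_conj [FiniteDimensional (ResField M) V] (ρ : G →* Module.End (ResField M) V)
    (g x : G) : bchar ρ (g * x * g⁻¹) = bchar ρ x := by
  have hu : ρ g * ρ g⁻¹ = 1 := by rw [← map_mul, mul_inv_cancel, map_one]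
  have hw : ρ g⁻¹ * ρ g = 1 := by rw [← map_mul, inv_mul_cancel, map_one]
  have ho : orderOf (g * x * g⁻¹) = orderOf x :=
    orderOf_injective (MulAut.conj g).toMonoidHom (MulAut.conj g).injective x
  let f : Module.End (ResField M) V →+* Module.End (ResField M) V :=
    { toFun := fun s => ρ g * s * ρ g⁻¹
      map_one' := by rw [mul_one, hu]
      map_mul' := fun a b => by
        rw [show ρ g * a * ρ g⁻¹ * (ρ g * b * ρ g⁻¹) =
          ρ g * a * (ρ g⁻¹ * ρ g) * b * ρ g⁻¹ by simp only [mul_assoc], hw, mul_one]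
        simp only [mul_assoc]
      map_zero' := by simp
      map_add' := fun a b => by simp [mul_add, add_mul] }
  unfold bchar bcharLoc
  rw [ho]
  congr 1
  refine sum_congr rfl fun l _ => ?_
  congr 2
  have h := map_eigen (RingHom.id (ResField M)) f (fun r s => by simp [f, mul_smul_comm,
    smul_mul_assoc]) (res M (invN M (orderOf x))) (res M (root M (orderOf x))) (orderOf x) (ρ x) l
  have h' : f (ρ x) = ρ (g * x * g⁻¹) := by simp [f, map_mul]
  rw [h'] at h
  simp only [RingHom.id_apply] at h
  rw [show eigBar M (orderOf x) (ρ (g * x * g⁻¹)) l = f (eigBar M (orderOf x) (ρ x) l) from h.symm]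
  exact rk_conj hu hw _

/-- Modulo `M` the Brauer character at a regular element is the trace. -/
theorem res_bcharLoc [Finite G] [FiniteDimensional (ResField M) V] (hM : Cfsg.IsPModular p M)
    (ρ : G →* Module.End (ResField M) V) {x : G} (hx : ¬ p ∣ orderOf x) :
    res M (bcharLoc ρ x) = LinearMap.trace (ResField M) V (ρ x) := by
  set m := orderOf x
  have hm : 0 < m := orderOf_pos x
  let T : Module.End (ResField M) V := ρ x
  have hT : T ^ m = 1 := by rw [← map_pow, pow_orderOf_eq_one, map_one]
  let y : MonoidAlgebra (localRing M) (Multiplicative (ZMod m)) := 1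
  let _ : Algebra (localRing M) (Module.End (ResField M) V) :=
    ((algebraMap (ResField M) (Module.End (ResField M) V)).comp (res M)).toAlgebra'
      fun c s => Algebra.commutes (res M c) s
  have hsmul : ∀ (c : localRing M) (s : Module.End (ResField M) V), c • s = res M c • s :=
    fun c s => by rw [Algebra.smul_def, Algebra.smul_def]; rfl
  have hc := natCast_mul_invN hM hx
  have hω := isPrimitiveRoot_root (M := M) hm
  have he : ∀ l, eigen (invN M m) (root M m) m T l = eigBar M m T l := fun l => by
    simp [eigen, eigBar, hsmul]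
  have hkey := sum_pow_smul_eigen hω hc hm hT
  conv_rhs => rw [show ρ x = T from rfl, ← hkey]
  rw [map_sum, bcharLoc, map_sum]
  refine sum_congr rfl fun l _ => ?_
  rw [hsmul, map_smul, map_mul, map_natCast, smul_eq_mul, map_pow, ← trace_eq_rk, he]
  rw [← he]
  exact isIdempotentElem_eigen hc hω.pow_eq_one hm hT l

end Def

section Lift

variable {Q : Type u} [Group Q] {n : ℕ}

open scoped Classical in
/-- Left translation on functions on `Q × Fin n`, as a matrix. -/
noncomputable def transl (R : Type*) [CommRing R] (x : Q) : Matrix (Q × Fin n) (Q × Fin n) R :=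
  Matrix.of fun ai bj => if ai = (x * bj.1, bj.2) then 1 else 0

theorem transl_mul_apply [Fintype Q] {R : Type*} [CommRing R] (x : Q)
    (A : Matrix (Q × Fin n) (Q × Fin n) R) (ai bj : Q × Fin n) :
    (transl (n := n) R x * A) ai bj = A (x⁻¹ * ai.1, ai.2) bj := by
  classical
  rw [Matrix.mul_apply, Finset.sum_eq_single (x⁻¹ * ai.1, ai.2)]
  · simp [transl]
  · intro c _ hc
    rw [transl, Matrix.of_apply, if_neg, zero_mul]
    intro h
    apply hc
    rw [h]
    simp
  · simp

theorem mul_transl_apply [Fintype Q] {R : Type*} [CommRing R] (x : Q)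
    (A : Matrix (Q × Fin n) (Q × Fin n) R) (ai bj : Q × Fin n) :
    (A * transl (n := n) R x) ai bj = A ai (x * bj.1, bj.2) := by
  classical
  rw [Matrix.mul_apply, Finset.sum_eq_single (x * bj.1, bj.2)]
  · simp [transl]
  · intro c _ hc
    rw [transl, Matrix.of_apply, if_neg hc, mul_zero]
  · simp

theorem transl_map {R R' : Type*} [CommRing R] [CommRing R'] (f : R →+* R') (x : Q) :
    (transl (n := n) R x).map f = transl R' x := by
  classical
  ext ai bj
  simp [transl, apply_ite f]

open scoped Classical in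
/-- Translations form a representation. -/
noncomputable def translHom [Fintype Q] (R : Type*) [CommRing R] :
    Q →* Matrix (Q × Fin n) (Q × Fin n) R where
  toFun := transl R
  map_one' := by
    ext ai bj
    simp [transl, Matrix.one_apply]
  map_mul' x y := by
    ext ai bj
    rw [transl_mul_apply]
    simp only [transl, Matrix.of_apply, Prod.ext_iff, eq_inv_mul_iff_mul_eq, inv_mul_eq_iff_eq_mul,
      mul_assoc]

open scoped Classical in
/-- A representation of a group of invertible order is a summand of translations. -/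
theorem exists_proj_matrix [Fintype Q] {k : Type*} [Field k] {V : Type*} [AddCommGroup V]
    [Module k V] [FiniteDimensional k V] {c : k} (hc : (Fintype.card Q : k) * c = 1)
    (ρ : Q →* Module.End k V) :
    ∃ (N : ℕ) (P : Matrix (Q × Fin N) (Q × Fin N) k) (i : V →ₗ[k] (Q × Fin N → k))
      (π : (Q × Fin N → k) →ₗ[k] V), (∀ v, π (i v) = v) ∧ P * P = P ∧
      (∀ (x : Q) (ai bj : Q × Fin N), P (x * ai.1, ai.2) (x * bj.1, bj.2) = P ai bj) ∧
      Matrix.toLinAlgEquiv' P = i ∘ₗ π ∧
      ∀ x : Q, (Matrix.toLinAlgEquiv' (transl k x)) ∘ₗ i = i ∘ₗ ρ x := by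
  let bV := Module.finBasis k V
  set N := Module.finrank k V
  let i : V →ₗ[k] (Q × Fin N → k) :=
    LinearMap.pi fun aj : Q × Fin N => ((bV.coord aj.2).comp (ρ aj.1⁻¹))
  let π : (Q × Fin N → k) →ₗ[k] V :=
    c • ∑ aj : Q × Fin N, (LinearMap.proj aj : (Q × Fin N → k) →ₗ[k] k).smulRight (ρ aj.1 (bV aj.2))
  have hi : ∀ v aj, i v aj = bV.repr (ρ aj.1⁻¹ v) aj.2 := fun v aj => rfl
  have hπ : ∀ f : Q × Fin N → k, π f = c • ∑ aj : Q × Fin N, f aj • ρ aj.1 (bV aj.2) := fun f => by
    simp [π]
  have hπi : ∀ v, π (i v) = v := by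
    intro v
    rw [hπ]
    simp only [hi]
    rw [Fintype.sum_prod_type]
    have : ∀ a : Q, ∑ j, (bV.repr (ρ a⁻¹ v)) j • ρ a (bV j) = v := fun a => by
      rw [Finset.sum_congr rfl fun j _ => ((ρ a).map_smul ((bV.repr (ρ a⁻¹ v)) j) (bV j)).symm,
        ← map_sum, bV.sum_repr, ← Module.End.mul_apply, ← map_mul, mul_inv_cancel, map_one,
        Module.End.one_apply]
    rw [Finset.sum_congr rfl fun a _ => this a, Finset.sum_const, Finset.card_univ,
      ← Nat.cast_smul_eq_nsmul k, smul_smul, mul_comm, hc, one_smul]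
  let P : Matrix (Q × Fin N) (Q × Fin N) k := Matrix.of fun ai bj =>
    c * (bV.repr (ρ (ai.1⁻¹ * bj.1) (bV bj.2))) ai.2
  have hP : Matrix.toLinAlgEquiv' P = i ∘ₗ π := by
    refine LinearMap.ext fun f => funext fun ai => ?_
    rw [LinearMap.comp_apply, hi, hπ, map_smul, map_sum, map_smul, map_sum, Finsupp.smul_apply,
      Finsupp.finsetSum_apply, smul_eq_mul, Matrix.toLinAlgEquiv'_apply, Matrix.mulVec, dotProduct,
      Finset.mul_sum]
    refine Finset.sum_congr rfl fun bj _ => ?_
    rw [map_smul, map_smul, Finsupp.smul_apply, smul_eq_mul, ← Module.End.mul_apply, ← map_mul]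
    simp only [P, Matrix.of_apply]
    ring
  refine ⟨N, P, i, π, hπi, Matrix.toLinAlgEquiv'.injective ?_, fun x ai bj => by
    simp [P, mul_assoc], hP, fun x => ?_⟩
  · rw [map_mul, hP]
    refine LinearMap.ext fun f => ?_
    show i (π (i (π f))) = i (π f)
    rw [hπi]
  · refine LinearMap.ext fun v => funext fun ai => ?_
    rw [LinearMap.comp_apply, LinearMap.comp_apply, Matrix.toLinAlgEquiv'_apply, Matrix.mulVec,
      dotProduct, Finset.sum_eq_single (x⁻¹ * ai.1, ai.2)]
    · simp [transl, hi, ← Module.End.mul_apply, ← map_mul]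
    · intro c _ hc
      rw [transl, Matrix.of_apply, if_neg, zero_mul]
      intro h
      apply hc
      rw [h]
      simp
    · simp

open scoped Classical in
/-- Invariant idempotent matrices lift. -/
theorem exists_idem_matrix_lift [Fintype Q] {N : ℕ}
    {P : Matrix (Q × Fin N) (Q × Fin N) (ResField M)} (hPP : P * P = P)
    (hinv : ∀ (x : Q) (ai bj : Q × Fin N), P (x * ai.1, ai.2) (x * bj.1, bj.2) = P ai bj) :
    ∃ E : Matrix (Q × Fin N) (Q × Fin N) (localRing M), E * E = E ∧ E.map (res M) = P ∧
      ∀ x : Q, Commute E (transl (localRing M) x) := by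
  choose s hs using Cfsg.Agent.H41.res_surjective (M := M)
  let A₀ : Matrix (Q × Fin N) (Q × Fin N) (localRing M) := Matrix.of fun ai bj => s (P ai bj)
  let S := Subalgebra.centralizer (localRing M)
    (Set.range (translHom (n := N) (Q := Q) (localRing M)))
  have hA₀ : A₀ ∈ S := by
    rw [Subalgebra.mem_centralizer_iff]
    rintro _ ⟨x, rfl⟩
    refine Matrix.ext fun ai bj => ?_
    show (transl (n := N) (localRing M) x * A₀) ai bj = (A₀ * transl (n := N) (localRing M) x) ai bj
    rw [transl_mul_apply, mul_transl_apply]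
    simp only [A₀, Matrix.of_apply]
    congr 1
    conv_lhs => rw [← hinv x]
    simp
  let φ : S →+* Matrix (Q × Fin N) (Q × Fin N) (ResField M) :=
    (res M).mapMatrix.comp S.val.toRingHom
  have hφA : φ ⟨A₀, hA₀⟩ = P := by
    refine Matrix.ext fun ai bj => ?_
    simp [φ, A₀, hs]
  have hfin : Module.Finite (localRing M) (Matrix (Q × Fin N) (Q × Fin N) (localRing M)) :=
    Module.Finite.matrix
  have hint : IsIntegral (localRing M) (⟨A₀, hA₀⟩ : S) :=
    (isIntegral_algHom_iff S.val Subtype.val_injective).1 (IsIntegral.of_finite _ _)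
  have hc : ∀ c : localRing M, φ (algebraMap (localRing M) S c) =
      algebraMap (ResField M) (Matrix (Q × Fin N) (Q × Fin N) (ResField M)) (res M c) := by
    intro c
    show ((algebraMap (localRing M) (Matrix (Q × Fin N) (Q × Fin N) (localRing M)) c)).map (res M) = _
    rw [Matrix.algebraMap_eq_diagonal, Matrix.algebraMap_eq_diagonal, Matrix.diagonal_map (map_zero _)]
    rfl
  have hid : φ ⟨A₀, hA₀⟩ * φ ⟨A₀, hA₀⟩ = φ ⟨A₀, hA₀⟩ := by rw [hφA, hPP]
  obtain ⟨w, -, hidem, hw⟩ := Cfsg.Agent.H40.exists_idem_of_map (M := M) (A := ↥S) (B := Matrix (Q × Fin N) (Q × Fin N) (ResField M)) φ hc hint hid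
  generalize hz : (⟨A₀, hA₀⟩ : S) * w = z at hidem hw
  have h1 : (z : Matrix (Q × Fin N) (Q × Fin N) (localRing M)) * z = z := by
    rw [← MulMemClass.coe_mul, hidem]
  have h2 : φ z = P := hw.trans hφA
  have h3 : (z : Matrix (Q × Fin N) (Q × Fin N) (localRing M)).map (res M) = P := by
    rw [← h2]
    rfl
  refine ⟨z, h1, h3, fun x => ?_⟩
  have h4 := (Subalgebra.mem_centralizer_iff (localRing M)).1 z.2 (transl (localRing M) x) ⟨x, rfl⟩
  exact h4.symm

open scoped Classical in
variable (M) in
/-- An idempotent matrix over the local ring, as an endomorphism over the residue field. -/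
noncomputable def toK [Fintype Q] (N : ℕ) : Matrix (Q × Fin N) (Q × Fin N) (localRing M) →+*
    Module.End (ResField M) (Q × Fin N → ResField M) :=
  (Matrix.toLinAlgEquiv' (R := ResField M) (n := Q × Fin N)).toRingEquiv.toRingHom.comp
    (res M).mapMatrix

open scoped Classical in
theorem toK_apply [Fintype Q] {N : ℕ} (A : Matrix (Q × Fin N) (Q × Fin N) (localRing M)) :
    toK M N A = Matrix.toLinAlgEquiv' (A.map (res M)) := rfl

open scoped Classical in
theorem toK_smul [Fintype Q] {N : ℕ} (r : localRing M)
    (A : Matrix (Q × Fin N) (Q × Fin N) (localRing M)) :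
    toK M N (r • A) = res M r • toK M N A := by
  rw [toK_apply, toK_apply, ← map_smul]
  congr 1
  refine Matrix.ext fun ai bj => ?_
  simp

open scoped Classical in
variable (M) in
/-- A matrix over the local ring, as a complex endomorphism. -/
noncomputable def toC [Fintype Q] (N : ℕ) : Matrix (Q × Fin N) (Q × Fin N) (localRing M) →+*
    Module.End ℂ (Q × Fin N → ℂ) :=
  (Matrix.toLinAlgEquiv' (R := ℂ) (n := Q × Fin N)).toRingEquiv.toRingHom.comp
    (localRing M).subtype.mapMatrix

open scoped Classical in
theorem toC_smul [Fintype Q] {N : ℕ} (r : localRing M)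
    (A : Matrix (Q × Fin N) (Q × Fin N) (localRing M)) :
    toC M N (r • A) = (r : ℂ) • toC M N A := by
  show Matrix.toLinAlgEquiv' ((r • A).map (localRing M).subtype) =
    (r : ℂ) • Matrix.toLinAlgEquiv' (A.map (localRing M).subtype)
  rw [← map_smul]
  rfl

open scoped Classical in
/-- The character on the range of an invariant idempotent matrix, by ranks of its reduction. -/
theorem exists_isCharacter_rank [Fintype Q] (hM : Cfsg.IsPModular p M) (hQ : ¬ p ∣ Nat.card Q)
    {N : ℕ} {E : Matrix (Q × Fin N) (Q × Fin N) (localRing M)} (hEE : E * E = E)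
    (hEc : ∀ x : Q, Commute E (transl (localRing M) x)) :
    ∃ ψ : Q → ℂ, Cfsg.IsCharacter Q ψ ∧ ∀ x : Q, ψ x = ∑ l ∈ range (orderOf x),
      ((root M (orderOf x) : localRing M) : ℂ) ^ l * (rk (toK M N
        (eigen (invN M (orderOf x)) (root M (orderOf x)) (orderOf x) (transl (localRing M) x) l
          * E)) : ℂ) := by
  let Ec := toC M N E
  let Lc : Q →* Module.End ℂ (Q × Fin N → ℂ) := (toC M N).toMonoidHom.comp (translHom _)
  have hEcc : IsIdempotentElem Ec := (show IsIdempotentElem E from hEE).map (toC M N)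
  let W : Submodule ℂ (Q × Fin N → ℂ) := LinearMap.range Ec
  have hWid : ∀ v ∈ W, Ec v = v := by
    rintro _ ⟨v, rfl⟩
    rw [← Module.End.mul_apply, hEcc.eq]
  have hWL : ∀ x, ∀ v ∈ W, Lc x v ∈ W := by
    rintro x v hv
    refine ⟨Lc x v, ?_⟩
    rw [← Module.End.mul_apply, show Ec * Lc x = Lc x * Ec from ((hEc x).map (toC M N)).eq,
      Module.End.mul_apply, hWid v hv]
  let σ : Representation ℂ Q W :=
    { toFun := fun x => (Lc x).restrict (hWL x)
      map_one' := LinearMap.ext fun v => Subtype.ext (by
        simp [LinearMap.restrict_apply, Module.End.one_apply])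
      map_mul' := fun x y => LinearMap.ext fun v => Subtype.ext (by
        simp [LinearMap.restrict_apply, Module.End.mul_apply]) }
  refine ⟨σ.character, Cfsg.Agent.H26.isCharacter_char σ, fun x => ?_⟩
  have hmem : ∀ v, (Lc x * Ec) v ∈ W := fun v => hWL x _ ⟨v, rfl⟩
  have htr : σ.character x = LinearMap.trace ℂ (Q × Fin N → ℂ) (Lc x * Ec) := by
    rw [← LinearMap.trace_restrict_eq_of_forall_mem W (Lc x * Ec) hmem]
    show LinearMap.trace ℂ W (σ x) = _
    congr 1
    refine LinearMap.ext fun v => Subtype.ext ?_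
    show Lc x v = Lc x (Ec v)
    rw [hWid v v.2]
  rw [htr]
  set m := orderOf x
  have hm : 0 < m := orderOf_pos x
  have hpm : ¬ p ∣ m := fun h => hQ (h.trans (orderOf_dvd_natCard x))
  have hc := natCast_mul_invN hM hpm
  have hω := isPrimitiveRoot_root (M := M) hm
  have hT : (transl (n := N) (localRing M) x) ^ m = 1 := by
    show translHom (localRing M) x ^ m = 1
    rw [← map_pow, pow_orderOf_eq_one, map_one]
  have hdec : transl (localRing M) x * E = ∑ l ∈ range m, root M m ^ l •
      (eigen (invN M m) (root M m) m (transl (localRing M) x) l * E) := by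
    conv_lhs => rw [← sum_pow_smul_eigen hω hc hm hT, Finset.sum_mul]
    simp only [smul_mul_assoc]
  rw [show Lc x * Ec = toC M N (transl (localRing M) x * E) from (map_mul (toC M N) _ _).symm,
    hdec, map_sum, map_sum]
  refine sum_congr rfl fun l _ => ?_
  have hε := IsIdempotentElem.mul_of_commute (eigen_commute _ _ _ (hEc x).symm l)
    (isIdempotentElem_eigen hc hω.pow_eq_one hm hT l) hEE
  rw [toC_smul, map_smul, smul_eq_mul, trace_eq_rk (hε.map (toC M N))]
  have hr : rk (toK M N (eigen (invN M m) (root M m) m (transl (localRing M) x) l * E)) =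
      rk (toC M N (eigen (invN M m) (root M m) m (transl (localRing M) x) l * E)) :=
    Cfsg.Agent.H26.finrank_range_map_eq (res M) (localRing M).subtype Subtype.val_injective hε.eq
  rw [hr]
  push_cast
  rfl

/-- Over a group of order prime to `p` the Brauer character is the character of a lift. -/
theorem exists_isCharacter_bchar [Finite Q] (hM : Cfsg.IsPModular p M) (hQ : ¬ p ∣ Nat.card Q)
    {V : Type*} [AddCommGroup V] [Module (ResField M) V] [FiniteDimensional (ResField M) V]
    (ρ : Q →* Module.End (ResField M) V) :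
    ∃ ψ : Q → ℂ, Cfsg.IsCharacter Q ψ ∧ ∀ x, ψ x = bchar ρ x := by
  classical
  have : Fintype Q := Fintype.ofFinite Q
  have hc : (Fintype.card Q : ResField M) * res M (invN M (Nat.card Q)) = 1 := by
    rw [← Nat.card_eq_fintype_card, ← map_natCast (res M), ← map_mul, natCast_mul_invN hM hQ,
      map_one]
  obtain ⟨N, P, i, π, hπi, hPP, hinv, hP, hL⟩ := exists_proj_matrix hc ρ
  obtain ⟨E, hEE, hEP, hEc⟩ := exists_idem_matrix_lift hPP hinv
  obtain ⟨ψ, hψ, hψv⟩ := exists_isCharacter_rank hM hQ hEE hEc
  refine ⟨ψ, hψ, fun x => ?_⟩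
  rw [hψv, bchar, bcharLoc, AddSubmonoidClass.coe_finsetSum]
  refine sum_congr rfl fun l _ => ?_
  push_cast
  congr 2
  set m := orderOf x
  have hK : toK M N (transl (localRing M) x) = Matrix.toLinAlgEquiv' (transl (ResField M) x) := by
    rw [toK_apply, transl_map]
  have hpow : ∀ t : ℕ, (toK M N (transl (localRing M) x) ^ t) ∘ₗ i = i ∘ₗ (ρ x ^ t) := by
    intro t
    induction t with
    | zero => simp [Module.End.one_eq_id]
    | succ t ih =>
      rw [pow_succ, pow_succ, Module.End.mul_eq_comp, Module.End.mul_eq_comp, LinearMap.comp_assoc,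
        hK, hL x, ← hK, ← LinearMap.comp_assoc, ih, LinearMap.comp_assoc]
  have heig : toK M N (eigen (invN M m) (root M m) m (transl (localRing M) x) l) ∘ₗ i =
      i ∘ₗ eigBar M m (ρ x) l := by
    rw [map_eigen (res M) (toK (Q := Q) M N) (fun r A => toK_smul r A)]
    refine LinearMap.ext fun v => ?_
    simp only [eigen, eigBar, LinearMap.comp_apply, LinearMap.sum_apply, LinearMap.smul_apply,
      map_sum, map_smul]
    exact Finset.sum_congr rfl fun t _ => congrArg _ (LinearMap.congr_fun (hpow t) v)
  have hεK : toK M N (eigen (invN M m) (root M m) m (transl (localRing M) x) l * E) =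
      (i ∘ₗ eigBar M m (ρ x) l) ∘ₗ π := by
    rw [map_mul, Module.End.mul_eq_comp,
      show toK M N E = i ∘ₗ π by rw [toK_apply, hEP, hP], ← LinearMap.comp_assoc, heig]
  rw [rk, hεK, LinearMap.range_comp_of_range_eq_top _
    (LinearMap.range_eq_top.2 fun v => ⟨i v, hπi v⟩), LinearMap.range_comp]
  exact (Submodule.equivMapOfInjective i
    (Function.LeftInverse.injective hπi) _).finrank_eq.symm

end Lift

section Regular

variable {G : Type u} [Group G] [Finite G]

variable (p) in
/-- The `p`-regular part. -/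
noncomputable def regPart (g : G) : G :=
  (g ^ (Cfsg.Agent.H40.exists_pPart_exponent p G).choose)⁻¹ * g

theorem regPart_spec (g : G) : ∃ x : G, Cfsg.IsPPart p g x ∧ x * regPart p g = g ∧
    Commute x (regPart p g) ∧ ¬ p ∣ orderOf (regPart p g) := by
  have h := (Cfsg.Agent.H40.exists_pPart_exponent p G).choose_spec.2 g
  obtain ⟨y, h1, h2, h3, h4⟩ := id h
  refine ⟨_, h, ?_⟩
  have : regPart p g = y := by rw [regPart, inv_mul_eq_iff_eq_mul, h1]
  rw [this]
  exact ⟨h1, h2, h4⟩

theorem regPart_eq {g x y : G} (h : Cfsg.IsPPart p g x) (hxy : x * y = g) : regPart p g = y := by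
  obtain ⟨x', hx', h1, -, -⟩ := regPart_spec (p := p) g
  rw [← Cfsg.Agent.H40.isPPart_unique h hx'] at h1
  exact mul_left_cancel (h1.trans hxy.symm)

theorem regPart_of_regular {g : G} (hg : ¬ p ∣ orderOf g) : regPart p g = g :=
  regPart_eq (Cfsg.Agent.H40.isPPart_of_regular hg) (one_mul g)

theorem regPart_conj (u g : G) : regPart p (u * g * u⁻¹) = u * regPart p g * u⁻¹ := by
  obtain ⟨x, hx, h1, -, -⟩ := regPart_spec (p := p) g
  refine regPart_eq (Cfsg.Agent.H40.isPPart_conj u hx) ?_
  conv_rhs => rw [← h1]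
  group

variable {V : Type*} [AddCommGroup V] [Module (ResField M) V] [FiniteDimensional (ResField M) V]

variable (p) in
/-- The Brauer character composed with the regular part. -/
noncomputable def theta (ρ : G →* Module.End (ResField M) V) (g : G) : ℂ :=
  bchar ρ (regPart p g)

variable (p) in
/-- The extended Brauer character as a member of the local ring. -/
noncomputable def thetaLoc (ρ : G →* Module.End (ResField M) V) (g : G) : localRing M :=
  bcharLoc ρ (regPart p g)

theorem coe_thetaLoc (ρ : G →* Module.End (ResField M) V) (g : G) :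
    (thetaLoc p ρ g : ℂ) = theta p ρ g := rfl

theorem theta_conj (ρ : G →* Module.End (ResField M) V) (u g : G) :
    theta p ρ (u * g * u⁻¹) = theta p ρ g := by
  rw [theta, regPart_conj, bchar_conj]
  rfl

/-- Modulo `M` the extended Brauer character is the trace. -/
theorem res_thetaLoc (hM : Cfsg.IsPModular p M) (ρ : G →* Module.End (ResField M) V) (g : G) :
    res M (thetaLoc p ρ g) = LinearMap.trace (ResField M) V (ρ g) := by
  have : CharP (ResField M) p := Cfsg.Agent.H41.IsPModular.charP hM
  obtain ⟨x, ⟨_, -, -, hx, -⟩, h1, h2, h3⟩ := regPart_spec (p := p) g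
  rw [thetaLoc, res_bcharLoc hM ρ h3]
  conv_rhs => rw [← h1, Cfsg.Agent.H43.D1.trace_eq_trace_pPrimePart ρ hx h2]

/-- The extended Brauer character is a generalized character. -/
theorem theta_mem_genChars (hM : Cfsg.IsPModular p M) (ρ : G →* Module.End (ResField M) V) :
    theta p ρ ∈ Cfsg.Agent.H27.genChars G := by
  classical
  have : Fintype G := Fintype.ofFinite G
  refine Cfsg.Agent.H27.mem_genChars_of_elementary (fun g u => theta_conj ρ u g)
    fun E q hq hE => ?_
  have : Group.IsNilpotent E := Cfsg.Agent.H27.isNilpotent_of_isElementary hq hE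
  obtain ⟨R, hRn, hRi, hR⟩ := Cfsg.Agent.H42.exists_regular_subgroup (E := E) p
  obtain ⟨S⟩ : Nonempty (Sylow p E) := inferInstance
  have hnorm : ∀ (q : ℕ) (_ : Fact q.Prime) (T : Sylow q E), (T : Subgroup E).Normal :=
    ((isNilpotent_of_finite_tfae (G := E)).out 0 3).1 ‹_›
  have hSn : (S : Subgroup E).Normal := hnorm p inferInstance S
  have hmemS : ∀ (u : E) (j : ℕ), orderOf u = p ^ j → u ∈ (S : Subgroup E) := by
    intro u j hu
    have hP : IsPGroup p (Subgroup.zpowers u) := IsPGroup.of_card (by rw [Nat.card_zpowers, hu])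
    obtain ⟨S', hS'⟩ := hP.exists_le_sylow
    have : Subsingleton (Sylow p E) := (Sylow.unique_of_normal S hSn).instSubsingleton
    exact (Subsingleton.elim S' S ▸ hS') (Subgroup.mem_zpowers u)
  have hQ : ¬ p ∣ Nat.card R := fun h => by
    obtain ⟨r, hr⟩ := exists_prime_orderOf_dvd_card' p h
    exact (hR r).1 r.2 (by rw [Subgroup.orderOf_coe, hr])
  have hdec : ∀ e : E, ∃ u r : E, u ∈ (S : Subgroup E) ∧ r ∈ R ∧ u * r = e ∧
      regPart p (e : G) = (r : G) := by
    intro e
    obtain ⟨x, hx, h1, -, h3⟩ := regPart_spec (p := p) e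
    refine ⟨x, regPart p e, ?_, (hR _).2 h3, h1, ?_⟩
    · obtain ⟨-, -, -, ⟨j, hj⟩, -⟩ := hx
      exact hmemS x j hj
    · exact regPart_eq (Cfsg.Agent.H40.isPPart_coe_iff.2 hx)
        (by rw [← Subgroup.coe_mul, h1])
  let f : R →* E ⧸ (S : Subgroup E) := (QuotientGroup.mk' (S : Subgroup E)).comp R.subtype
  have hfb : Function.Bijective f := by
    refine ⟨(injective_iff_map_eq_one f).2 fun r hr => ?_, fun q => ?_⟩
    · have hrS : (r : E) ∈ (S : Subgroup E) := (QuotientGroup.eq_one_iff _).1 hr
      obtain ⟨j, hj⟩ := IsPGroup.iff_orderOf.1 S.2 ⟨_, hrS⟩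
      rw [Subgroup.orderOf_mk] at hj
      rcases Nat.eq_zero_or_pos j with rfl | hj0
      · exact Subtype.ext (orderOf_eq_one_iff.1 (by simpa using hj))
      · exact absurd (hj ▸ dvd_pow_self p hj0.ne') ((hR _).1 r.2)
    · obtain ⟨e, rfl⟩ := QuotientGroup.mk'_surjective (S : Subgroup E) q
      obtain ⟨u, r, hu, hr, hur, -⟩ := hdec e
      refine ⟨⟨r, hr⟩, ?_⟩
      show QuotientGroup.mk' (S : Subgroup E) r = _
      rw [← hur, map_mul]
      conv_rhs => rw [show QuotientGroup.mk' (S : Subgroup E) u = 1 from
        (QuotientGroup.eq_one_iff u).2 hu, one_mul]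
  let π : E →* R := (MulEquiv.ofBijective f hfb).symm.toMonoidHom.comp (QuotientGroup.mk' _)
  obtain ⟨ψ, hψ, hψv⟩ := exists_isCharacter_bchar hM hQ (ρ.comp (E.subtype.comp R.subtype))
  have hχ := Cfsg.Agent.H26.isCharacter_comp hψ π
  have heq : (fun e : E => theta p ρ (e : G)) = ψ ∘ π := by
    funext e
    obtain ⟨u, r, hu, hr, hur, hreg⟩ := hdec e
    have hπ : π e = ⟨r, hr⟩ := by
      apply (MulEquiv.ofBijective f hfb).injective
      show (MulEquiv.ofBijective f hfb) ((MulEquiv.ofBijective f hfb).symm _) = _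
      rw [MulEquiv.apply_symm_apply]
      show QuotientGroup.mk' (S : Subgroup E) e = QuotientGroup.mk' (S : Subgroup E) r
      rw [← hur, map_mul]
      conv_lhs => rw [show QuotientGroup.mk' (S : Subgroup E) u = 1 from
        (QuotientGroup.eq_one_iff u).2 hu, one_mul]
    rw [theta, hreg, Function.comp_apply, hψv, hπ, bchar_comp _ (by
      exact E.subtype_injective.comp R.subtype_injective)]
    rfl
  rw [heq]
  exact Cfsg.Agent.H27.mem_genChars_of_isCharacter hχ

end Regular

end Cfsg.Agent.H28.IBr
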