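import Mathlib

/-!
# Eigen idempotents of elements of finite order and ranks of idempotent endomorphisms
-/

set_option autoImplicit false

namespace Cfsg.Agent.H28.IBr

open Finset

section Eigen

variable {R : Type*} [CommRing R] {S : Type*} [Ring S] [Algebra R S]

/-- The projection to the `ω ^ l` eigenspace of an element `y` with `y ^ m = 1`. -/
noncomputable def eigen (c ω : R) (m : ℕ) (y : S) (l : ℕ) : S :=
  ∑ t ∈ range m, (c * (ω ^ (m - 1)) ^ (l * t)) • y ^ t

/-- Eigen idempotents commute with what commutes with the element. -/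
theorem eigen_commute (c ω : R) (m : ℕ) {y z : S} (h : Commute y z) (l : ℕ) :
    Commute (eigen c ω m y l) z :=
  Commute.sum_left _ _ _ fun t _ => (h.pow_left t).smul_left _

/-- Eigen idempotents are carried along by semilinear homomorphisms. -/
theorem map_eigen {R' : Type*} [CommRing R'] {S' : Type*} [Ring S'] [Algebra R' S'] (φ : R →+* R')
    (f : S →+* S') (hf : ∀ (r : R) (s : S), f (r • s) = φ r • f s) (c ω : R) (m : ℕ) (y : S)
    (l : ℕ) : f (eigen c ω m y l) = eigen (φ c) (φ ω) m (f y) l := by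
  simp [eigen, hf]

variable {c ω : R} {m : ℕ}

/-- The eigen idempotents, weighted by the eigenvalues, recover the element. -/
theorem sum_pow_smul_eigen [IsDomain R] (hω : IsPrimitiveRoot ω m) (hc : (m : R) * c = 1)
    (hm : 0 < m) {y : S} (hy : y ^ m = 1) :
    ∑ l ∈ range m, ω ^ l • eigen c ω m y l = y := by
  have key : ∀ t ∈ range m, ∑ l ∈ range m, ω ^ l * (c * (ω ^ (m - 1)) ^ (l * t)) =
      if t = 1 % m then 1 else 0 := by
    intro t ht
    have hζ : ∀ l : ℕ, ω ^ l * (c * (ω ^ (m - 1)) ^ (l * t)) = c * (ω ^ (1 + (m - 1) * t)) ^ l := by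
      intro l
      simp only [← pow_mul]
      rw [mul_left_comm, ← pow_add]
      congr 2
      ring
    rw [sum_congr rfl fun l _ => hζ l, ← mul_sum]
    have hiff : m ∣ 1 + (m - 1) * t ↔ t = 1 % m := by
      have h : (1 + (m - 1) * t + t) % m = 1 % m := by
        obtain ⟨k, rfl⟩ : ∃ k, m = k + 1 := ⟨m - 1, by omega⟩
        rw [show 1 + (k + 1 - 1) * t + t = 1 + (k + 1) * t by rw [Nat.add_sub_cancel]; ring,
          Nat.add_mul_mod_self_left]
      rw [Nat.dvd_iff_mod_eq_zero]
      constructor
      · intro h0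
        rw [Nat.add_mod, h0, zero_add, Nat.mod_mod, Nat.mod_eq_of_lt (mem_range.1 ht)] at h
        exact h
      · intro ht1
        have h2 : Nat.ModEq m ((1 + (m - 1) * t) + t) (0 + t) := by
          show _ % m = _ % m
          rw [h, zero_add, ht1, Nat.mod_mod]
        exact Eq.trans (Nat.ModEq.add_right_cancel' t h2) (Nat.zero_mod m)
    by_cases ht1 : t = 1 % m
    · rw [if_pos ht1, (hω.pow_eq_one_iff_dvd _).2 (hiff.2 ht1)]
      simp [mul_comm c, hc]
    · rw [if_neg ht1]
      have hne : ω ^ (1 + (m - 1) * t) ≠ 1 := fun h =>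
        ht1 (hiff.1 ((hω.pow_eq_one_iff_dvd _).1 h))
      have h0 : (ω ^ (1 + (m - 1) * t) - 1) *
          ∑ l ∈ range m, (ω ^ (1 + (m - 1) * t)) ^ l = 0 := by
        rw [mul_geom_sum, ← pow_mul, mul_comm (1 + (m - 1) * t), pow_mul, hω.pow_eq_one, one_pow,
          sub_self]
      rw [(mul_eq_zero.1 h0).resolve_left (sub_ne_zero.2 hne), mul_zero]
  calc ∑ l ∈ range m, ω ^ l • eigen c ω m y l
      = ∑ t ∈ range m, (∑ l ∈ range m, ω ^ l * (c * (ω ^ (m - 1)) ^ (l * t))) • y ^ t := by
        simp only [eigen, smul_sum, sum_smul, smul_smul]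
        exact sum_comm
    _ = ∑ t ∈ range m, (if t = 1 % m then (1 : R) else 0) • y ^ t :=
        sum_congr rfl fun t ht => by rw [key t ht]
    _ = y ^ (1 % m) := by
        simp [ite_smul, Nat.mod_lt 1 hm]
    _ = y := by
        conv_rhs => rw [← pow_one y]
        exact (pow_eq_pow_mod 1 hy).symm

/-- The eigen idempotents are idempotent. -/
theorem isIdempotentElem_eigen (hc : (m : R) * c = 1) (hω : ω ^ m = 1) (hm : 0 < m) {y : S}
    (hy : y ^ m = 1) (l : ℕ) : IsIdempotentElem (eigen c ω m y l) := by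
  set e := eigen c ω m y l
  have he : ∀ t : ℕ, (c * (ω ^ (m - 1)) ^ (l * t)) • y ^ t =
      c • (((ω ^ (m - 1)) ^ l) ^ t • y ^ t) := fun t => by rw [smul_smul, pow_mul]
  set z : S := (ω ^ (m - 1)) ^ l • y with hz
  have he' : e = c • ∑ t ∈ range m, z ^ t := by
    simp only [e, eigen, smul_sum]
    refine sum_congr rfl fun t _ => ?_
    rw [hz, smul_pow, he t]
  have hzm : z ^ m = 1 := by
    rw [hz, smul_pow, hy, ← pow_mul, ← pow_mul,
      show (m - 1) * (l * m) = m * ((m - 1) * l) by ring, pow_mul, hω, one_pow, one_smul]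
  have hsum : z * ∑ t ∈ range m, z ^ t = ∑ t ∈ range m, z ^ t := by
    rw [mul_sum]
    have h1 : ∑ t ∈ range (m + 1), z ^ t = ∑ t ∈ range m, z ^ (t + 1) + z ^ 0 := sum_range_succ' _ _
    rw [sum_range_succ, hzm, pow_zero, add_left_inj] at h1
    rw [h1]
    exact sum_congr rfl fun t _ => (pow_succ' z t).symm
  have hpow : ∀ t, z ^ t * ∑ s ∈ range m, z ^ s = ∑ s ∈ range m, z ^ s := by
    intro t
    induction t with
    | zero => simp
    | succ t ih => rw [pow_succ, mul_assoc, hsum, ih]
  show e * e = e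
  rw [he', smul_mul_smul_comm, sum_mul, sum_congr rfl fun t _ => hpow t, sum_const, card_range,
    ← Nat.cast_smul_eq_nsmul R, smul_smul, mul_assoc, mul_comm c (m : R), hc, mul_one]

end Eigen

section Rank

variable {K : Type*} [Field K] {V : Type*} [AddCommGroup V] [Module K V] [FiniteDimensional K V]

/-- The rank of an endomorphism. -/
noncomputable def rk (f : Module.End K V) : ℕ := Module.finrank K (LinearMap.range f)

theorem rk_zero : rk (0 : Module.End K V) = 0 := by
  rw [rk, LinearMap.range_zero, finrank_bot]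

theorem rk_one : rk (1 : Module.End K V) = Module.finrank K V := by
  rw [rk, Module.End.one_eq_id, LinearMap.range_id, finrank_top]

/-- The trace of an idempotent endomorphism is its rank. -/
theorem trace_eq_rk {e : Module.End K V} (he : IsIdempotentElem e) :
    LinearMap.trace K V e = (rk e : K) :=
  ((LinearMap.isProj_range_iff_isIdempotentElem _).2 he).trace

/-- Ranks of orthogonal idempotents add. -/
theorem rk_add {e f : Module.End K V} (he : IsIdempotentElem e) (hf : IsIdempotentElem f)
    (hef : e * f = 0) (hfe : f * e = 0) : rk (e + f) = rk e + rk f := by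
  have hr : LinearMap.range (e + f) = LinearMap.range e ⊔ LinearMap.range f := by
    refine le_antisymm ?_ (sup_le ?_ ?_)
    · rintro _ ⟨v, rfl⟩
      exact Submodule.add_mem_sup ⟨v, rfl⟩ ⟨v, rfl⟩
    · rintro _ ⟨v, rfl⟩
      refine ⟨e v, ?_⟩
      show e (e v) + f (e v) = e v
      rw [← Module.End.mul_apply, ← Module.End.mul_apply, he.eq, hfe, LinearMap.zero_apply, add_zero]
    · rintro _ ⟨v, rfl⟩
      refine ⟨f v, ?_⟩
      show e (f v) + f (f v) = f v
      rw [← Module.End.mul_apply, ← Module.End.mul_apply, hf.eq, hef, LinearMap.zero_apply, zero_add]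
  have hd : LinearMap.range e ⊓ LinearMap.range f = ⊥ := by
    refine eq_bot_iff.2 ?_
    rintro v ⟨⟨a, rfl⟩, ⟨b, hb⟩⟩
    rw [Submodule.mem_bot]
    have h1 : e (e a) = e a := by rw [← Module.End.mul_apply, he.eq]
    rw [← h1, ← hb, ← Module.End.mul_apply, hef, LinearMap.zero_apply]
  have h := Submodule.finrank_sup_add_finrank_inf_eq (LinearMap.range e) (LinearMap.range f)
  rw [hd, finrank_bot, add_zero] at h
  rw [rk, hr, h]
  rfl

/-- Ranks are unchanged by conjugation. -/
theorem rk_conj {u w : Module.End K V} (huw : u * w = 1) (hwu : w * u = 1) (f : Module.End K V) :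
    rk (u * f * w) = rk f := by
  let U : V ≃ₗ[K] V :=
    LinearEquiv.ofLinear u w (by exact huw) (by exact hwu)
  have hw : LinearMap.range w = ⊤ := LinearMap.range_eq_top.2 fun v =>
    ⟨u v, by rw [← Module.End.mul_apply, hwu]; rfl⟩
  have h : LinearMap.range (u * f * w) = (LinearMap.range f).map (U : V →ₗ[K] V) := by
    rw [Module.End.mul_eq_comp, LinearMap.range_comp_of_range_eq_top _ hw,
      Module.End.mul_eq_comp, LinearMap.range_comp]
    rfl
  rw [rk, h, LinearEquiv.finrank_map_eq]
  rfl

end Rank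

end Cfsg.Agent.H28.IBr
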